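import Cfsg.Agent.Lib.ToddCox.Fi23O.XP
set_option autoImplicit false
set_option maxRecDepth 100000
namespace Cfsg.Agent.Lib.ToddCox.Fi23O

theorem chunk6 : allBelow (fun i => fxp (6 * 2048 + i)) 2048 11 = true := by decide +kernel
theorem chunk7 : allBelow (fun i => fxp (7 * 2048 + i)) 2048 11 = true := by decide +kernel
theorem chunk8 : allBelow (fun i => fxp (8 * 2048 + i)) 2048 11 = true := by decide +kernel
theorem chunk9 : allBelow (fun i => fxp (9 * 2048 + i)) 2048 11 = true := by decide +kernel
theorem chunk10 : allBelow (fun i => fxp (10 * 2048 + i)) 2048 11 = true := by decide +kernel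
theorem chunk11 : allBelow (fun i => fxp (11 * 2048 + i)) 2048 11 = true := by decide +kernel

end Cfsg.Agent.Lib.ToddCox.Fi23O
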