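import Cfsg.Agent.Lib.ToddCox.Fi23O.XP
set_option autoImplicit false
set_option maxRecDepth 100000
namespace Cfsg.Agent.Lib.ToddCox.Fi23O

theorem chunk12 : allBelow (fun i => fxp (12 * 2048 + i)) 2048 11 = true := by decide +kernel
theorem chunk13 : allBelow (fun i => fxp (13 * 2048 + i)) 2048 11 = true := by decide +kernel
theorem chunk14 : allBelow (fun i => fxp (14 * 2048 + i)) 2048 11 = true := by decide +kernel
theorem chunk15 : allBelow (fun i => fxp (15 * 2048 + i)) 951 11 = true := by decide +kernel

end Cfsg.Agent.Lib.ToddCox.Fi23O
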