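import Cfsg.Agent.Lib.ToddCox.Fi23O.XP0
import Cfsg.Agent.Lib.ToddCox.Fi23O.XP1
import Cfsg.Agent.Lib.ToddCox.Fi23O.XP2
import Cfsg.Agent.Lib.ToddCox.Base
import Cfsg.Agent.Lib.ToddCox.Fi23C0.Step
import Cfsg.Agent.Lib.ToddCox.Fi23C1.Step
import Cfsg.Agent.Lib.ToddCox.Fi23C2.Step
import Cfsg.Agent.Lib.ToddCox.Fi23C3.Step
import Cfsg.Agent.Lib.ToddCox.Fi23C4.Step
import Cfsg.Agent.Lib.ToddCox.Fi23C5.Step
import Cfsg.Agent.Lib.ToddCox.Fi23O.Low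
import Cfsg.Agent.Lib.ToddCox.Fi23X.Cert
set_option autoImplicit false
set_option maxRecDepth 100000
namespace Cfsg.Agent.Lib.ToddCox.Fi23O

theorem hTop : ∀ x, Cfsg.Agent.Lib.ToddCox.Fi23_31671.sg x true ∈ Cfsg.Agent.Lib.ToddCox.Fi23C0.Js := by
  intro x
  cases x <;> decide +kernel
theorem hTopLT : ∀ x, Cfsg.Agent.Lib.ToddCox.Fi23_31671.LT.getD (Cfsg.Agent.Lib.ToddCox.Fi23_31671.sg x true) 1 = FreeGroup.of x := by
  intro x
  cases x <;> decide +kernel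
theorem card_bd : 0 < Nat.card (PresentedGroup Cfsg.Agent.Lib.ToddCox.Fi23_31671.rels) ∧ Nat.card (PresentedGroup Cfsg.Agent.Lib.ToddCox.Fi23_31671.rels) ≤ 4089470473293004800 := by
  have h5 : 0 < Nat.card (letSub gen Cfsg.Agent.Lib.ToddCox.Fi23C5.Js) ∧ Nat.card (letSub gen Cfsg.Agent.Lib.ToddCox.Fi23C5.Js) ≤ 720 * 1 :=
    card_le_of_chain Cfsg.Agent.Lib.ToddCox.Fi23C5.le Cfsg.Agent.Lib.ToddCox.Fi23C5.step card_letSub_nil
  have h4 : 0 < Nat.card (letSub gen Cfsg.Agent.Lib.ToddCox.Fi23C4.Js) ∧ Nat.card (letSub gen Cfsg.Agent.Lib.ToddCox.Fi23C4.Js) ≤ 7 * (720 * 1) :=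
    card_le_of_chain Cfsg.Agent.Lib.ToddCox.Fi23C4.le Cfsg.Agent.Lib.ToddCox.Fi23C4.step h5
  have h3 : 0 < Nat.card (letSub gen Cfsg.Agent.Lib.ToddCox.Fi23C3.Js) ∧ Nat.card (letSub gen Cfsg.Agent.Lib.ToddCox.Fi23C3.Js) ≤ 576 * (7 * (720 * 1)) :=
    card_le_of_chain Cfsg.Agent.Lib.ToddCox.Fi23C3.le Cfsg.Agent.Lib.ToddCox.Fi23C3.step h4
  have h2 : 0 < Nat.card (letSub gen Cfsg.Agent.Lib.ToddCox.Fi23C2.Js) ∧ Nat.card (letSub gen Cfsg.Agent.Lib.ToddCox.Fi23C2.Js) ≤ 3159 * (576 * (7 * (720 * 1))) :=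
    card_le_of_chain Cfsg.Agent.Lib.ToddCox.Fi23C2.le Cfsg.Agent.Lib.ToddCox.Fi23C2.step h3
  have h1 : 0 < Nat.card (letSub gen Cfsg.Agent.Lib.ToddCox.Fi23C1.Js) ∧ Nat.card (letSub gen Cfsg.Agent.Lib.ToddCox.Fi23C1.Js) ≤ 14080 * (3159 * (576 * (7 * (720 * 1)))) :=
    card_le_of_chain Cfsg.Agent.Lib.ToddCox.Fi23C1.le Cfsg.Agent.Lib.ToddCox.Fi23C1.step h2
  have h0 : 0 < Nat.card (letSub gen Cfsg.Agent.Lib.ToddCox.Fi23C0.Js) ∧ Nat.card (letSub gen Cfsg.Agent.Lib.ToddCox.Fi23C0.Js) ≤ 31671 * (14080 * (3159 * (576 * (7 * (720 * 1))))) :=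
    card_le_of_chain Cfsg.Agent.Lib.ToddCox.Fi23C0.le Cfsg.Agent.Lib.ToddCox.Fi23C0.step h1
  rw [show letSub gen Cfsg.Agent.Lib.ToddCox.Fi23C0.Js = ⊤ from letSub_top hTop hTopLT, Subgroup.card_top] at h0
  norm_num at h0
  exact h0

abbrev x : PresentedGroup Cfsg.Agent.Lib.ToddCox.Fi23_31671.rels := wordVal gen Cfsg.Agent.Lib.ToddCox.Fi23X.xw

theorem xR : ∀ w ∈ Cfsg.Agent.Lib.ToddCox.Fi23X.Rb, w = Cfsg.Agent.Lib.ToddCox.Fi23X.xw ∨ w ∈ Cfsg.Agent.Lib.ToddCox.Fi23_31671.RL.map (relW Cfsg.Agent.Lib.ToddCox.Fi23_31671.sg) ∨ freeVal Cfsg.Agent.Lib.ToddCox.Fi23_31671.LT w = 1 := by decide +kernel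
theorem xHl : Cfsg.Agent.Lib.ToddCox.Fi23X.Hl = [] := rfl
theorem hcl : Subgroup.normalClosure {x} = ⊤ :=
  normalClosure_top_of_cert gen x Cfsg.Agent.Lib.ToddCox.Fi23X.inv Cfsg.Agent.Lib.ToddCox.Fi23_31671.letters.genInv Cfsg.Agent.Lib.ToddCox.Fi23X.Eo Cfsg.Agent.Lib.ToddCox.Fi23X.W Cfsg.Agent.Lib.ToddCox.Fi23X.isH (fun y hy => invOf_lt _ hy) Cfsg.Agent.Lib.ToddCox.Fi23X.Eo_lt
    (genP_id (by decide +kernel)) Cfsg.Agent.Lib.ToddCox.Fi23X.Rb (by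
      intro w hw
      rcases xR w hw with h | h
      · rw [h]
        exact Subgroup.subset_normalClosure rfl
      · rw [Cfsg.Agent.Lib.ToddCox.Fi23_31671.letters.word h]
        exact Subgroup.one_mem _)
    Cfsg.Agent.Lib.ToddCox.Fi23X.nW Cfsg.Agent.Lib.ToddCox.Fi23X.W_ge Cfsg.Agent.Lib.ToddCox.Fi23X.sp Cfsg.Agent.Lib.ToddCox.Fi23X.words (fun y => rfl) Cfsg.Agent.Lib.ToddCox.Fi23X.defs Cfsg.Agent.Lib.ToddCox.Fi23X.covered Cfsg.Agent.Lib.ToddCox.Fi23X.cF Cfsg.Agent.Lib.ToddCox.Fi23X.cF_zero Cfsg.Agent.Lib.ToddCox.Fi23X.cF_lt Cfsg.Agent.Lib.ToddCox.Fi23X.ys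
    (letSub_top (by intro x; cases x <;> decide +kernel) hTopLT) Cfsg.Agent.Lib.ToddCox.Fi23X.links

theorem xpowOK : ∀ i, i < 31671 → fxp i = true := by
  apply all_of_chunks2 (sz := 2048) (d := 11) (k := 15) (r := 951) (by norm_num) (by norm_num) (by norm_num) ?_ chunk15
  intro j hj
  interval_cases j
  · exact chunk0
  · exact chunk1
  · exact chunk2
  · exact chunk3
  · exact chunk4
  · exact chunk5
  · exact chunk6
  · exact chunk7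
  · exact chunk8
  · exact chunk9
  · exact chunk10
  · exact chunk11
  · exact chunk12
  · exact chunk13
  · exact chunk14

def sizes : List ℕ := [28160, 3510]
theorem hsum : ∀ d ∈ ssums sizes, (d + 1) ∣ 31671 → d = 0 ∨ d + 1 = 31671 := by decide +kernel

theorem main : IsSimpleGroup (PresentedGroup Cfsg.Agent.Lib.ToddCox.Fi23_31671.rels) ∧ Nat.card (PresentedGroup Cfsg.Agent.Lib.ToddCox.Fi23_31671.rels) = 4089470473293004800 := by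
  obtain ⟨ρ, hρ⟩ := Cfsg.Agent.Lib.ToddCox.Fi23_31671.rep_exists
  have hc := card_bd
  have hl := low hρ
  obtain ⟨hcard, hinj⟩ := card_and_faithful hc.1 hc.2 hl (fun w _ => ⟨_, rfl⟩)
  have hfin : Finite (PresentedGroup Cfsg.Agent.Lib.ToddCox.Fi23_31671.rels) := Nat.finite_of_card_ne_zero (by rw [hcard]; norm_num)
  have hnt : Nontrivial (PresentedGroup Cfsg.Agent.Lib.ToddCox.Fi23_31671.rels) := by
    rw [← Finite.one_lt_card_iff_nontrivial, hcard]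
    norm_num
  obtain ⟨_, hb1⟩ := block_facts (d := 15) Cfsg.Agent.Lib.ToddCox.Fi23_31671.t6 (by norm_num) Cfsg.Agent.Lib.ToddCox.Fi23_31671.bk1
  obtain ⟨_, hb2⟩ := block_facts (d := 15) Cfsg.Agent.Lib.ToddCox.Fi23_31671.t6 (by norm_num) Cfsg.Agent.Lib.ToddCox.Fi23_31671.bk2
  have hconn : BlocksConn ρ (subG Cfsg.Agent.Lib.ToddCox.Fi23_31671.rels Cfsg.Agent.Lib.ToddCox.Fi23_31671.Sl) sizes 1 := ⟨conn_of_tables hρ hb1, ⟨conn_of_tables hρ hb2, trivial⟩⟩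
  have hxp : x ^ 17 = 1 := by
    rw [← wordVal_powW, ← xpow_eq]
    apply hinj
    rw [map_one]
    ext i
    rw [rep_word hρ hLT xpowL]
    exact Nat.eq_of_beq_eq_true (xpowOK i i.2)
  refine ⟨simple_of_rep ρ hinj (by norm_num) (subG Cfsg.Agent.Lib.ToddCox.Fi23_31671.rels Cfsg.Agent.Lib.ToddCox.Fi23_31671.Sl) (subG_fix hρ Cfsg.Agent.Lib.ToddCox.Fi23_31671.fix0)
    (rep_trans hρ (by norm_num) Cfsg.Agent.Lib.ToddCox.Fi23_31671.reach) sizes (by norm_num [sizes]) hconn hsum x 17 1 (by norm_num) hxp (by norm_num)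
    (by rw [hcard]; norm_num) hcl, hcard⟩

end Cfsg.Agent.Lib.ToddCox.Fi23O
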