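import Cfsg.Agent.Lib.ToddCox.Fi23O.Lv0
set_option autoImplicit false
set_option maxRecDepth 100000
namespace Cfsg.Agent.Lib.ToddCox.Fi23O

abbrev gen : ℕ → PresentedGroup Cfsg.Agent.Lib.ToddCox.Fi23_31671.rels := genP Cfsg.Agent.Lib.ToddCox.Fi23_31671.rels Cfsg.Agent.Lib.ToddCox.Fi23_31671.LT

theorem hLT : ∀ y, y < 10 → relW Cfsg.Agent.Lib.ToddCox.Fi23_31671.sg (Cfsg.Agent.Lib.ToddCox.Fi23_31671.LT.getD y 1) = [y] := by decide +kernel
theorem hLm : ∀ w ∈ L, ∀ a ∈ w, a < 10 := by decide +kernel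
theorem low {ρ : PresentedGroup Cfsg.Agent.Lib.ToddCox.Fi23_31671.rels →* Equiv.Perm (Fin 31671)}
    (hρ : ∀ r (i : Fin 31671), ((ρ (PresentedGroup.mk Cfsg.Agent.Lib.ToddCox.Fi23_31671.rels r) i : Fin 31671) : ℕ) = tabW Cfsg.Agent.Lib.ToddCox.Fi23_31671.tab (relW Cfsg.Agent.Lib.ToddCox.Fi23_31671.sg r) i) :
    4089470473293004800 ≤ Nat.card (sgsG (fun w => ρ (wordVal gen w)) L 0) := by
  have hel : ∀ w ∈ L, ∀ i : Fin 31671, (((fun w => ρ (wordVal gen w)) w i : Fin 31671) : ℕ) = tabW Cfsg.Agent.Lib.ToddCox.Fi23_31671.tab w i :=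
    fun w hw i => rep_word hρ hLT (hLm w hw) i
  have h5 : 1 ≤ Nat.card (sgsG (fun w => ρ (wordVal gen w)) L 38) := sgsG_pos _ _
  have c4 : ∀ k, k < 27 → chkOrbPos Cfsg.Agent.Lib.ToddCox.Fi23_31671.tab L 35 2 27 31671 (fun q => orbR (Nat.add 89447 q)) k = true :=
    defs_of_bits 27 11 1 (by norm_num) (by
      intro j hj
      interval_cases j
      · exact lv4_0
      )
  have h4 : 27 * 1 ≤ Nat.card (sgsG (fun w => ρ (wordVal gen w)) L 35) :=
    le_trans (Nat.mul_le_mul_left 27 h5) (level_bound (by norm_num) (by norm_num) hel fx4 c4)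
  norm_num at h4
  have c3 : ∀ k, k < 7776 → chkOrbPos Cfsg.Agent.Lib.ToddCox.Fi23_31671.tab L 27 1230 7776 31671 (fun q => orbR (Nat.add 81671 q)) k = true :=
    defs_of_bits 7776 11 4 (by norm_num) (by
      intro j hj
      interval_cases j
      · exact lv3_0
      · exact lv3_1
      · exact lv3_2
      · exact lv3_3
      )
  have h3 : 7776 * 27 ≤ Nat.card (sgsG (fun w => ρ (wordVal gen w)) L 27) :=
    le_trans (Nat.mul_le_mul_left 7776 h4) (level_bound (by norm_num) (by norm_num) hel fx3 c3)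
  norm_num at h3
  have c2 : ∀ k, k < 21840 → chkOrbPos Cfsg.Agent.Lib.ToddCox.Fi23_31671.tab L 19 203 21840 31671 (fun q => orbR (Nat.add 59831 q)) k = true :=
    defs_of_bits 21840 11 11 (by norm_num) (by
      intro j hj
      interval_cases j
      · exact lv2_0
      · exact lv2_1
      · exact lv2_2
      · exact lv2_3
      · exact lv2_4
      · exact lv2_5
      · exact lv2_6
      · exact lv2_7
      · exact lv2_8
      · exact lv2_9
      · exact lv2_10
      )
  have h2 : 21840 * 209952 ≤ Nat.card (sgsG (fun w => ρ (wordVal gen w)) L 19) :=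
    le_trans (Nat.mul_le_mul_left 21840 h3) (level_bound (by norm_num) (by norm_num) hel fx2 c2)
  norm_num at h2
  have c1 : ∀ k, k < 28160 → chkOrbPos Cfsg.Agent.Lib.ToddCox.Fi23_31671.tab L 10 1 28160 31671 (fun q => orbR (Nat.add 31671 q)) k = true :=
    defs_of_bits 28160 11 14 (by norm_num) (by
      intro j hj
      interval_cases j
      · exact lv1_0
      · exact lv1_1
      · exact lv1_2
      · exact lv1_3
      · exact lv1_4
      · exact lv1_5
      · exact lv1_6
      · exact lv1_7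
      · exact lv1_8
      · exact lv1_9
      · exact lv1_10
      · exact lv1_11
      · exact lv1_12
      · exact lv1_13
      )
  have h1 : 28160 * 4585351680 ≤ Nat.card (sgsG (fun w => ρ (wordVal gen w)) L 10) :=
    le_trans (Nat.mul_le_mul_left 28160 h2) (level_bound (by norm_num) (by norm_num) hel fx1 c1)
  norm_num at h1
  have c0 : ∀ k, k < 31671 → chkOrbPos Cfsg.Agent.Lib.ToddCox.Fi23_31671.tab L 0 0 31671 31671 (fun q => orbR (Nat.add 0 q)) k = true :=
    defs_of_bits 31671 11 16 (by norm_num) (by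
      intro j hj
      interval_cases j
      · exact lv0_0
      · exact lv0_1
      · exact lv0_2
      · exact lv0_3
      · exact lv0_4
      · exact lv0_5
      · exact lv0_6
      · exact lv0_7
      · exact lv0_8
      · exact lv0_9
      · exact lv0_10
      · exact lv0_11
      · exact lv0_12
      · exact lv0_13
      · exact lv0_14
      · exact lv0_15
      )
  have h0 : 31671 * 129123503308800 ≤ Nat.card (sgsG (fun w => ρ (wordVal gen w)) L 0) :=
    le_trans (Nat.mul_le_mul_left 31671 h1) (level_bound (by norm_num) (by norm_num) hel fx0 c0)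
  norm_num at h0
  exact h0
end Cfsg.Agent.Lib.ToddCox.Fi23O
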