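import Cfsg.Agent.Lib.ToddCox.Fi23O.XP
set_option autoImplicit false
set_option maxRecDepth 100000
namespace Cfsg.Agent.Lib.ToddCox.Fi23O

theorem chunk0 : allBelow (fun i => fxp (0 * 2048 + i)) 2048 11 = true := by decide +kernel
theorem chunk1 : allBelow (fun i => fxp (1 * 2048 + i)) 2048 11 = true := by decide +kernel
theorem chunk2 : allBelow (fun i => fxp (2 * 2048 + i)) 2048 11 = true := by decide +kernel
theorem chunk3 : allBelow (fun i => fxp (3 * 2048 + i)) 2048 11 = true := by decide +kernel
theorem chunk4 : allBelow (fun i => fxp (4 * 2048 + i)) 2048 11 = true := by decide +kernel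
theorem chunk5 : allBelow (fun i => fxp (5 * 2048 + i)) 2048 11 = true := by decide +kernel

end Cfsg.Agent.Lib.ToddCox.Fi23O
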